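import Cfsg.Agent.H562.PQR.Iface
import Cfsg.Agent.KantorSeitz.Defs
import Cfsg.Agent.Lib.PSolvable

/-!
# S3988: the reduction (helper410)

* `not_triple` : a `p`-solvable group has no triple `x y z = 1` of nontrivial elements of `a`-, `b`-, `c`-power orders
  with `p ∈ {a, b, c}` (pairwise distinct primes).
* `lift_all` : a triple of a perfect group `S` which generates `S` lifts to every extension of `S` by a nilpotent group
  (of order divisible only by primes dividing `|S|`), if it lifts centrally (`CLift`) and `LiftStmt` holds.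
* `reduce` : the theorem of S3988 from the rows of all nonabelian simple groups and `LiftStmt`.
-/

set_option autoImplicit false
set_option linter.unusedSectionVars false

namespace Cfsg.Agent.H410.PQR

open Cfsg.Agent.H562.PQR
open scoped commutatorElement
open Cfsg.Agent.KantorSeitz (pP pR mem_pP mem_pR exists_mul_parts pP_conj pR_conj)

universe u v

/-- **the lifting statement** (PQR-LIFT) -/
def LiftStmt : Prop :=
  ∀ (s : ℕ), s.Prime → s ≠ 2 → ∀ (X S : Type u) [Group X] [Finite X] [Group S] [Finite S] (π : X →* S),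
    Function.Surjective π → IsPGroup s π.ker → commutator S = ⊤ → ∀ x y z : S, ¬ s ∣ orderOf x → ¬ s ∣ orderOf y →
    ¬ s ∣ orderOf z → x * y * z = 1 → Subgroup.closure ({x, y, z} : Set S) = ⊤ → CLift s x y z →
    ∃ x' y' z' : X, π x' = x ∧ π y' = y ∧ π z' = z ∧ x' * y' * z' = 1 ∧
      ¬ s ∣ orderOf x' ∧ ¬ s ∣ orderOf y' ∧ ¬ s ∣ orderOf z'

section noTriple

variable {G : Type u} [Group G]

theorem mem_of_coprime {H K : Subgroup G} [H.Normal] {y : G} (hy : y ∈ K) {m : ℕ} (hm : y ^ m = 1)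
    (hc : Nat.Coprime (H.relIndex K) m) : y ∈ H := by
  have h1 : (⟨y, hy⟩ : K) ^ (H.subgroupOf K).index ∈ H.subgroupOf K := Subgroup.pow_index_mem _ _
  have h2 : y ^ H.relIndex K ∈ H := h1
  have h3 : y ^ m ∈ H := by rw [hm]; exact H.one_mem
  have h4 : (QuotientGroup.mk y : G ⧸ H) ^ H.relIndex K = 1 := by
    rw [← QuotientGroup.mk_pow, QuotientGroup.eq_one_iff]; exact h2
  have h5 : (QuotientGroup.mk y : G ⧸ H) ^ m = 1 := by
    rw [← QuotientGroup.mk_pow, QuotientGroup.eq_one_iff]; exact h3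
  have h6 := pow_gcd_eq_one.2 ⟨h4, h5⟩
  rw [hc, pow_one, QuotientGroup.eq_one_iff] at h6
  exact h6

theorem not_triple_aux {p b c : ℕ} [hp : Fact p.Prime] (h : Cfsg.IsPSolvable p G)
    (hb : b.Prime) (hc : c.Prime) (hab : p ≠ b) (hac : p ≠ c) (hbc : b ≠ c) {x y z : G} (hx : PE p x) (hy : PE b y)
    (hz : PE c z) (h1 : x * y * z = 1) : False := by
  obtain ⟨n, H, h0, hlast, -, hnorm, hfac⟩ := h
  obtain ⟨hx1, i, hi⟩ := hx
  obtain ⟨-, j, hj⟩ := hy
  obtain ⟨-, k, hk⟩ := hz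
  have hxi : x ^ p ^ i = 1 := by rw [← hi, pow_orderOf_eq_one]
  have hyj : y ^ b ^ j = 1 := by rw [← hj, pow_orderOf_eq_one]
  have hzk : z ^ c ^ k = 1 := by rw [← hk, pow_orderOf_eq_one]
  have key : ∀ l : Fin (n + 1), x ∈ H l ∧ y ∈ H l ∧ z ∈ H l := by
    intro l
    induction l using Fin.reverseInduction with
    | last => rw [hlast]; exact ⟨trivial, trivial, trivial⟩
    | cast l ih =>
      obtain ⟨ihx, ihy, ihz⟩ := ih
      have := hnorm l.castSucc
      rcases hfac l with ⟨m, hm⟩ | hm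
      · have hy' : y ∈ H l.castSucc := mem_of_coprime ihy hyj (by
          rw [hm]; exact Nat.Coprime.pow _ _ ((Nat.coprime_primes hp.out hb).2 hab))
        have hz' : z ∈ H l.castSucc := mem_of_coprime ihz hzk (by
          rw [hm]; exact Nat.Coprime.pow _ _ ((Nat.coprime_primes hp.out hc).2 hac))
        refine ⟨?_, hy', hz'⟩
        have h2 : x = (y * z)⁻¹ := eq_inv_of_mul_eq_one_left (by rw [← mul_assoc]; exact h1)
        rw [h2]
        exact inv_mem (mul_mem hy' hz')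
      · have hx' : x ∈ H l.castSucc := mem_of_coprime ihx hxi (Nat.Coprime.pow_right _ hm)
        -- modulo `H l`, `y = z⁻¹`
        have h2 : y * z ∈ H l.castSucc := by
          have h3 : y * z = x⁻¹ := eq_inv_of_mul_eq_one_right (by rw [← mul_assoc]; exact h1)
          rw [h3]
          exact inv_mem hx'
        have h3 : (QuotientGroup.mk y : G ⧸ H l.castSucc) = (QuotientGroup.mk z)⁻¹ := by
          rw [eq_inv_iff_mul_eq_one, ← QuotientGroup.mk_mul, QuotientGroup.eq_one_iff]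
          exact h2
        have h4 : (QuotientGroup.mk y : G ⧸ H l.castSucc) ^ b ^ j = 1 := by
          rw [← QuotientGroup.mk_pow, hyj, QuotientGroup.mk_one]
        have h5 : (QuotientGroup.mk y : G ⧸ H l.castSucc) ^ c ^ k = 1 := by
          rw [h3, inv_pow, ← QuotientGroup.mk_pow, hzk, QuotientGroup.mk_one, inv_one]
        have h6 := pow_gcd_eq_one.2 ⟨h4, h5⟩
        rw [Nat.Coprime.gcd_eq_one (Nat.Coprime.pow _ _ ((Nat.coprime_primes hb hc).2 hbc)), pow_one] at h6
        have h7 : (QuotientGroup.mk z : G ⧸ H l.castSucc) = 1 := by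
          rw [h6] at h3
          exact inv_eq_one.1 h3.symm
        exact ⟨hx', (QuotientGroup.eq_one_iff _).1 h6, (QuotientGroup.eq_one_iff _).1 h7⟩
  have h2 := (key 0).1
  rw [h0, Subgroup.mem_bot] at h2
  exact hx1 h2

theorem rot {x y z : G} (h : x * y * z = 1) : y * z * x = 1 := by
  have h8 : y * z = x⁻¹ := eq_inv_of_mul_eq_one_right (by rw [← mul_assoc]; exact h)
  rw [h8, inv_mul_cancel]

/-- **a `p`-solvable group has no triple** -/
theorem not_triple {p a b c : ℕ} [hp : Fact p.Prime] (h : Cfsg.IsPSolvable p G) (ha : a.Prime)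
    (hb : b.Prime) (hc : c.Prime) (hab : a ≠ b) (hac : a ≠ c) (hbc : b ≠ c) (hpd : p = a ∨ p = b ∨ p = c) {x y z : G}
    (hx : PE a x) (hy : PE b y) (hz : PE c z) (h1 : x * y * z = 1) : False := by
  rcases hpd with rfl | rfl | rfl
  · exact not_triple_aux h hb hc hab hac hbc hx hy hz h1
  · exact not_triple_aux h hc ha hbc hab.symm hac.symm hy hz hx (rot h1)
  · exact not_triple_aux h ha hb hac.symm hbc.symm hab hz hx hy (rot (rot h1))

end noTriple

section lift

variable {X : Type u} [Group X] [Finite X] {S : Type u} [Group S] [Finite S] {a b c : ℕ}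

/-- the triple lifts -/
def Lifts (a b c : ℕ) (π : X →* S) (x y z : S) : Prop :=
  ∃ x' y' z' : X, π x' = x ∧ π y' = y ∧ π z' = z ∧ x' * y' * z' = 1 ∧ (∃ k, x' ^ a ^ k = 1) ∧
    (∃ k, y' ^ b ^ k = 1) ∧ (∃ k, z' ^ c ^ k = 1)

theorem Lifts.rot {π : X →* S} {x y z : S} (h : Lifts a b c π x y z) : Lifts b c a π y z x := by
  obtain ⟨x', y', z', h1, h2, h3, h4, h5, h6, h7⟩ := h
  exact ⟨y', z', x', h2, h3, h1, PQR.rot h4, h6, h7, h5⟩

theorem exists_lift (hb : b.Prime) {π : X →* S} (hπ : Function.Surjective π) {y : S} (hy : PE b y) :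
    ∃ y' : X, π y' = y ∧ ∃ k, y' ^ b ^ k = 1 := by
  obtain ⟨-, k, hk⟩ := hy
  obtain ⟨y₀, hy₀⟩ := hπ y
  obtain ⟨j, m, hm, hj⟩ := Nat.exists_eq_pow_mul_and_not_dvd (orderOf_pos y₀).ne' b hb.ne_one
  have hco : Nat.Coprime (b ^ j) m := Nat.Coprime.pow_left j ((Nat.Prime.coprime_iff_not_dvd hb).2 hm)
  obtain ⟨t, ht1, ht2⟩ := Nat.chineseRemainder hco 1 0
  have hd : orderOf y ∣ b ^ j := by
    have h1 : orderOf y ∣ orderOf y₀ := by rw [← hy₀]; exact orderOf_map_dvd π y₀
    rw [hj] at h1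
    refine Nat.Coprime.dvd_of_dvd_mul_right ?_ h1
    rw [hk]
    exact Nat.Coprime.pow_left k ((Nat.Prime.coprime_iff_not_dvd hb).2 hm)
  refine ⟨y₀ ^ t, ?_, j, ?_⟩
  · rw [map_pow, hy₀]
    have h2 : t ≡ 1 [MOD orderOf y] := ht1.of_dvd hd
    rw [pow_eq_pow_iff_modEq.2 h2, pow_one]
  · rw [← pow_mul]
    apply orderOf_dvd_iff_pow_eq_one.1
    rw [hj, mul_comm]
    exact Nat.mul_dvd_mul_right ((Nat.modEq_zero_iff_dvd).1 ht2) _

theorem lifts_of_ker_a (hb : b.Prime) (hc : c.Prime) {π : X →* S} (hπ : Function.Surjective π)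
    (hk : IsPGroup a π.ker) {x y z : S} (hx : PE a x) (hy : PE b y) (hz : PE c z) (h1 : x * y * z = 1) :
    Lifts a b c π x y z := by
  obtain ⟨y', hy', hy1⟩ := exists_lift hb hπ hy
  obtain ⟨z', hz', hz1⟩ := exists_lift hc hπ hz
  have hx' : π (y' * z')⁻¹ = x := by
    rw [map_inv, map_mul, hy', hz']
    exact (eq_inv_of_mul_eq_one_left (by rw [← mul_assoc]; exact h1)).symm
  refine ⟨(y' * z')⁻¹, y', z', hx', hy', hz', by group, ?_, hy1, hz1⟩
  obtain ⟨-, i, hi⟩ := hx
  have h2 : ((y' * z')⁻¹) ^ a ^ i ∈ π.ker := by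
    rw [MonoidHom.mem_ker, map_pow, hx', ← hi, pow_orderOf_eq_one]
  obtain ⟨j, hj⟩ := hk ⟨_, h2⟩
  refine ⟨i + j, ?_⟩
  rw [pow_add, pow_mul]
  exact congrArg Subtype.val hj

theorem exists_of_not_dvd {s : ℕ} (hs : s.Prime) {π : X →* S} (hk : IsPGroup s π.ker) {x' : X}
    (h : ¬ s ∣ orderOf x') (hx : PE a (π x')) : ∃ k, x' ^ a ^ k = 1 := by
  obtain ⟨-, k, h1⟩ := hx
  refine ⟨k, ?_⟩
  rw [← h1, orderOf_eq_of_not_dvd hs hk h, pow_orderOf_eq_one]

/-- **gluing** -/
theorem Lifts.glue {π : X →* S} {K₁ K₂ : Subgroup X} [K₁.Normal] [K₂.Normal] (h₁ : K₁ ≤ π.ker) (h₂ : K₂ ≤ π.ker)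
    (hinf : ∀ x, x ∈ K₁ → x ∈ K₂ → x = 1) (hsup : ∀ x ∈ π.ker, ∃ y ∈ K₁, ∃ z ∈ K₂, x = y * z) {x y z : S}
    (H₁ : Lifts a b c (QuotientGroup.lift K₁ π h₁) x y z) (H₂ : Lifts a b c (QuotientGroup.lift K₂ π h₂) x y z) :
    Lifts a b c π x y z := by
  have crt : ∀ (t : ℕ) (w : S) (w₁ : X ⧸ K₁) (w₂ : X ⧸ K₂), QuotientGroup.lift K₁ π h₁ w₁ = w →
      QuotientGroup.lift K₂ π h₂ w₂ = w → (∃ k, w₁ ^ t ^ k = 1) → (∃ k, w₂ ^ t ^ k = 1) →
      ∃ g : X, (QuotientGroup.mk g : X ⧸ K₁) = w₁ ∧ (QuotientGroup.mk g : X ⧸ K₂) = w₂ ∧ π g = w ∧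
        ∃ k, g ^ t ^ k = 1 := by
    rintro t w w₁ w₂ e₁ e₂ ⟨k₁, hk₁⟩ ⟨k₂, hk₂⟩
    obtain ⟨g₁, rfl⟩ := QuotientGroup.mk_surjective w₁
    obtain ⟨g₂, rfl⟩ := QuotientGroup.mk_surjective w₂
    have e₁' : π g₁ = w := e₁
    have e₂' : π g₂ = w := e₂
    obtain ⟨m₁, hm₁, m₂, hm₂, hm⟩ := hsup (g₁⁻¹ * g₂) (by
      rw [MonoidHom.mem_ker, map_mul, map_inv, e₁', e₂', inv_mul_cancel])
    have hg1 : (QuotientGroup.mk (g₁ * m₁) : X ⧸ K₁) = QuotientGroup.mk g₁ :=
      QuotientGroup.mk_mul_of_mem g₁ hm₁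
    have hg2 : (QuotientGroup.mk (g₁ * m₁) : X ⧸ K₂) = QuotientGroup.mk g₂ := by
      have h3 : g₂ = g₁ * m₁ * m₂ := by rw [mul_assoc, ← hm]; group
      rw [h3]
      exact (QuotientGroup.mk_mul_of_mem _ hm₂).symm
    refine ⟨g₁ * m₁, hg1, hg2, ?_, k₁ + k₂, ?_⟩
    · rw [map_mul, e₁', MonoidHom.mem_ker.1 (h₁ hm₁), mul_one]
    · apply hinf
      · rw [← QuotientGroup.eq_one_iff, QuotientGroup.mk_pow, hg1, pow_add, pow_mul, hk₁, one_pow]
      · rw [← QuotientGroup.eq_one_iff, QuotientGroup.mk_pow, hg2, pow_add, mul_comm, pow_mul, hk₂, one_pow]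
  obtain ⟨x₁, y₁, z₁, hx₁, hy₁, hz₁, hp₁, ox₁, oy₁, oz₁⟩ := H₁
  obtain ⟨x₂, y₂, z₂, hx₂, hy₂, hz₂, hp₂, ox₂, oy₂, oz₂⟩ := H₂
  obtain ⟨x', hx1, hx2, hx3, hx4⟩ := crt a x x₁ x₂ hx₁ hx₂ ox₁ ox₂
  obtain ⟨y', hy1, hy2, hy3, hy4⟩ := crt b y y₁ y₂ hy₁ hy₂ oy₁ oy₂
  obtain ⟨z', hz1, hz2, hz3, hz4⟩ := crt c z z₁ z₂ hz₁ hz₂ oz₁ oz₂
  refine ⟨x', y', z', hx3, hy3, hz3, ?_, hx4, hy4, hz4⟩
  apply hinf
  · rw [← QuotientGroup.eq_one_iff, QuotientGroup.mk_mul, QuotientGroup.mk_mul, hx1, hy1, hz1, hp₁]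
  · rw [← QuotientGroup.eq_one_iff, QuotientGroup.mk_mul, QuotientGroup.mk_mul, hx2, hy2, hz2, hp₂]

/-- **the lifting theorem** -/
theorem lift_all (hL : LiftStmt.{u}) (hS : commutator S = ⊤) (ha : a.Prime) (hb : b.Prime) (hc : c.Prime)
    (h2 : 2 = a ∨ 2 = b ∨ 2 = c) {x y z : S} (hx : PE a x) (hy : PE b y) (hz : PE c z) (h1 : x * y * z = 1)
    (hgen : Subgroup.closure ({x, y, z} : Set S) = ⊤)
    (hC : ∀ s : ℕ, s.Prime → s ≠ 2 → s ≠ a → s ≠ b → s ≠ c → s ∣ Nat.card S → CLift s x y z) :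
    ∀ (n : ℕ) (X : Type u) [Group X] [Finite X] (π : X →* S), Nat.card X = n → Function.Surjective π →
      Group.IsNilpotent π.ker → (∀ s : ℕ, s.Prime → s ∣ Nat.card π.ker → s ∣ Nat.card S) → Lifts a b c π x y z := by
  intro n
  induction n using Nat.strong_induction_on with
  | _ n ih =>
    intro X _ _ π hn hπ hnil hpr
    by_cases hbot : Nat.card π.ker = 1
    · exact lifts_of_ker_a hb hc hπ (IsPGroup.of_card (n := 0) (by rw [hbot, pow_zero])) hx hy hz h1
    obtain ⟨s, hs, hsd⟩ := Nat.exists_prime_and_dvd hbot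
    have : Fact s.Prime := ⟨hs⟩
    -- the two parts of the kernel
    have hN₁ : (pP s π.ker).Normal := ⟨fun n hn g => pP_conj (fun x hx => (inferInstance : π.ker.Normal).conj_mem x hx g) hn⟩
    have hN₂ : (pR s π.ker).Normal := ⟨fun n hn g => pR_conj (fun x hx => (inferInstance : π.ker.Normal).conj_mem x hx g) hn⟩
    have hle₁ : pP s π.ker ≤ π.ker := fun x hx => ((mem_pP hnil).1 hx).1
    have hle₂ : pR s π.ker ≤ π.ker := fun x hx => ((mem_pR hnil).1 hx).1
    by_cases h3 : pR s π.ker = ⊥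
    · -- the kernel is an `s`-group
      have hk : IsPGroup s π.ker := by
        rintro ⟨g, hg⟩
        obtain ⟨u, hu, w, hw, h4, -⟩ := exists_mul_parts (p := s) hg
        rw [h3, Subgroup.mem_bot] at hw
        obtain ⟨-, k, hk⟩ := (mem_pP hnil).1 hu
        refine ⟨k, Subtype.ext ?_⟩
        change g ^ s ^ k = 1
        rw [h4, hw, mul_one, hk]
      by_cases hsa : s = a
      · subst hsa
        exact lifts_of_ker_a hb hc hπ hk hx hy hz h1
      by_cases hsb : s = b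
      · subst hsb
        exact (lifts_of_ker_a hc ha hπ hk hy hz hx (PQR.rot h1)).rot.rot
      by_cases hsc : s = c
      · subst hsc
        exact (lifts_of_ker_a ha hb hπ hk hz hx hy (PQR.rot (PQR.rot h1))).rot
      have hs2 : s ≠ 2 := by
        rintro rfl
        rcases h2 with h | h | h
        · exact hsa h
        · exact hsb h
        · exact hsc h
      obtain ⟨x', y', z', e1, e2, e3, e4, e5, e6, e7⟩ := hL s hs hs2 X S π hπ hk hS x y z (hx.not_dvd ha hs hsa)
        (hy.not_dvd hb hs hsb) (hz.not_dvd hc hs hsc) h1 hgen (hC s hs hs2 hsa hsb hsc (hpr s hs hsd))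
      refine ⟨x', y', z', e1, e2, e3, e4, exists_of_not_dvd hs hk e5 (by rwa [e1]),
        exists_of_not_dvd hs hk e6 (by rwa [e2]), exists_of_not_dvd hs hk e7 (by rwa [e3])⟩
    · have h4 : pP s π.ker ≠ ⊥ := by
        intro h5
        obtain ⟨g, hg⟩ := exists_prime_orderOf_dvd_card' s hsd
        have h6 : (g : X) ∈ pP s π.ker := (mem_pP hnil).2 ⟨g.2, 1, by
          have h7 : g ^ s = 1 := by rw [← hg, pow_orderOf_eq_one]
          rw [pow_one]
          exact congrArg Subtype.val h7⟩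
        rw [h5, Subgroup.mem_bot] at h6
        have h7 : g = 1 := Subtype.ext h6
        rw [h7, orderOf_one] at hg
        exact hs.one_lt.ne hg
      -- the quotients
      have quo : ∀ (K : Subgroup X) [K.Normal] (hK : K ≤ π.ker), K ≠ ⊥ →
          Lifts a b c (QuotientGroup.lift K π hK) x y z := by
        intro K _ hK hKb
        have hlt : Nat.card (X ⧸ K) < n := by
          rw [← hn, Subgroup.card_eq_card_quotient_mul_card_subgroup K]
          have h5 : 1 < Nat.card K := by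
            have h6 : Nat.card K ≠ 1 := fun h7 => hKb (Subgroup.card_eq_one.1 h7)
            have h8 : 0 < Nat.card K := Nat.card_pos
            omega
          exact lt_mul_of_one_lt_right Nat.card_pos h5
        let f : π.ker →* (QuotientGroup.lift K π hK).ker :=
          ((QuotientGroup.mk' K).comp π.ker.subtype).codRestrict _ (fun g => by
            rw [MonoidHom.mem_ker]
            exact MonoidHom.mem_ker.1 g.2)
        have hf : Function.Surjective f := by
          rintro ⟨w, hw⟩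
          obtain ⟨g, rfl⟩ := QuotientGroup.mk_surjective w
          have hg : π g = 1 := MonoidHom.mem_ker.1 hw
          exact ⟨⟨g, MonoidHom.mem_ker.2 hg⟩, rfl⟩
        refine ih _ hlt (X ⧸ K) (QuotientGroup.lift K π hK) rfl ?_ ?_ ?_
        · intro t
          obtain ⟨g, hg⟩ := hπ t
          exact ⟨QuotientGroup.mk g, hg⟩
        · exact Group.nilpotent_of_surjective f hf
        · intro r hr hrd
          exact hpr r hr (hrd.trans (Subgroup.card_dvd_of_surjective f hf))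
      refine Lifts.glue hle₁ hle₂ ?_ ?_ (quo _ hle₁ h4) (quo _ hle₂ h3)
      · intro g hg1 hg2
        obtain ⟨-, k, hk⟩ := (mem_pP hnil).1 hg1
        obtain ⟨-, h5⟩ := (mem_pR hnil).1 hg2
        have h6 : orderOf g ∣ s ^ k := orderOf_dvd_of_pow_eq_one hk
        have h7 : orderOf g = 1 := Nat.Coprime.eq_one_of_dvd (Nat.Coprime.pow_right k h5) h6
        exact orderOf_eq_one_iff.1 h7
      · intro g hg
        obtain ⟨u, hu, w, hw, h4, -⟩ := exists_mul_parts (p := s) hg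
        exact ⟨u, hu, w, hw, h4⟩

end lift

section reduction

/-- no triple (the condition of S3988) -/
def NT (p : ℕ) (G : Type u) [Group G] : Prop :=
  ∀ q r : ℕ, q.Prime → r.Prime → q ≠ r → q ≠ p → r ≠ p → ∀ x y z : G, x ≠ 1 → (∃ a : ℕ, orderOf x = p ^ a) →
    y ≠ 1 → (∃ b : ℕ, orderOf y = q ^ b) → z ≠ 1 → (∃ c : ℕ, orderOf z = r ^ c) → x * y * z ≠ 1

theorem NT.of_injective {p : ℕ} {G H : Type u} [Group G] [Group H] (h : NT p G) (f : H →* G)
    (hf : Function.Injective f) : NT p H := by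
  intro q r hq hr hqr hqp hrp x y z hx hx' hy hy' hz hz' h1
  refine h q r hq hr hqr hqp hrp (f x) (f y) (f z) ?_ ?_ ?_ ?_ ?_ ?_ ?_
  · exact fun h2 => hx (hf (by rw [h2, map_one]))
  · rwa [orderOf_injective f hf]
  · exact fun h2 => hy (hf (by rw [h2, map_one]))
  · rwa [orderOf_injective f hf]
  · exact fun h2 => hz (hf (by rw [h2, map_one]))
  · rwa [orderOf_injective f hf]
  · rw [← map_mul, ← map_mul, h1, map_one]

theorem NT.false {p : ℕ} {G : Type u} [Group G] (h : NT p G) {a b c : ℕ} (ha : a.Prime)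
    (hb : b.Prime) (hc : c.Prime) (hab : a ≠ b) (hac : a ≠ c) (hbc : b ≠ c) (hpd : p = a ∨ p = b ∨ p = c) {x y z : G}
    (hx : PE a x) (hy : PE b y) (hz : PE c z) (h1 : x * y * z = 1) : False := by
  rcases hpd with rfl | rfl | rfl
  · exact h b c hb hc hbc hab.symm hac.symm x y z hx.1 hx.2 hy.1 hy.2 hz.1 hz.2 h1
  · exact h c a hc ha hac.symm hbc.symm hab y z x hy.1 hy.2 hz.1 hz.2 hx.1 hx.2 (rot h1)
  · exact h a b ha hb hab hac hbc z x y hz.1 hz.2 hx.1 hx.2 hy.1 hy.2 (rot (rot h1))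

theorem pe_of_map {G S : Type u} [Group G] [Group S] {π : G →* S} {a : ℕ} (ha : a.Prime) {x' : G} {x : S}
    (hx : PE a x) (h : π x' = x) (hk : ∃ k, x' ^ a ^ k = 1) : PE a x' := by
  refine ⟨fun h1 => hx.1 (by rw [← h, h1, map_one]), ?_⟩
  obtain ⟨k, hk⟩ := hk
  obtain ⟨j, -, hj⟩ := (Nat.dvd_prime_pow ha).1 (orderOf_dvd_of_pow_eq_one hk)
  exact ⟨j, hj⟩

/-- **every prime divisor of a normal nilpotent subgroup contained in all maximal subgroups divides the index** -/
theorem dvd_quotient {G : Type u} [Group G] [Finite G] {N : Subgroup G} [N.Normal] (hnil : Group.IsNilpotent N)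
    (hM : ∀ M : Subgroup G, M ⊔ N = ⊤ → M = ⊤) {s : ℕ} (hs : s.Prime) (hsN : s ∣ Nat.card N) :
    s ∣ Nat.card (G ⧸ N) := by
  have : Fact s.Prime := ⟨hs⟩
  by_contra hsS
  have hPn : (pP s N).Normal := ⟨fun n hn g => pP_conj (fun x hx => (inferInstance : N.Normal).conj_mem x hx g) hn⟩
  obtain ⟨Q⟩ : Nonempty (Sylow s G) := inferInstance
  have hQ : (Q : Subgroup G) ≤ pP s N := by
    intro g hg
    obtain ⟨k, hk⟩ := Q.isPGroup' ⟨g, hg⟩
    have hk' : g ^ s ^ k = 1 := congrArg Subtype.val hk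
    refine (mem_pP hnil).2 ⟨?_, k, hk'⟩
    have h1 : g ∈ (⊤ : Subgroup G) := trivial
    refine mem_of_coprime h1 hk' ?_
    rw [Subgroup.relIndex_top_right]
    exact Nat.Coprime.pow_right k (((Nat.Prime.coprime_iff_not_dvd hs).2 hsS).symm)
  have hPp : IsPGroup s (pP s N) := Cfsg.Agent.KantorSeitz.isPGroup_pP hnil
  have hPQ : pP s N = Q := Q.is_maximal' hPp hQ
  have hco : Nat.Coprime (Nat.card (pP s N)) (pP s N).index := by
    obtain ⟨k, hk⟩ := IsPGroup.iff_card.1 hPp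
    rw [hk]
    refine Nat.Coprime.pow_left k ((Nat.Prime.coprime_iff_not_dvd hs).2 ?_)
    rw [hPQ]
    exact Q.not_dvd_index
  obtain ⟨H, hH⟩ := Subgroup.exists_right_complement'_of_coprime hco
  have h1 : H = ⊤ := by
    apply hM
    rw [eq_top_iff, ← hH.sup_eq_top, sup_comm]
    exact sup_le_sup_left (fun x hx => ((mem_pP hnil).1 hx).1) H
  obtain ⟨g, hg⟩ := exists_prime_orderOf_dvd_card' s hsN
  have h6 : (g : G) ∈ pP s N := (mem_pP hnil).2 ⟨g.2, 1, by
    have h7 : g ^ s = 1 := by rw [← hg, pow_orderOf_eq_one]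
    rw [pow_one]
    exact congrArg Subtype.val h7⟩
  have h7 : (g : G) ∈ pP s N ⊓ H := ⟨h6, by rw [h1]; trivial⟩
  rw [hH.disjoint.eq_bot, Subgroup.mem_bot] at h7
  have h8 : g = 1 := Subtype.ext h7
  rw [h8, orderOf_one] at hg
  exact hs.one_lt.ne hg

theorem exists_max_normal {G : Type u} [Group G] [Finite G] [Nontrivial G] :
    ∃ N : Subgroup G, ∃ _ : N.Normal, N ≠ ⊤ ∧ IsSimpleGroup (G ⧸ N) := by
  obtain ⟨N, hN⟩ := (Set.toFinite {N : Subgroup G | N.Normal ∧ N ≠ ⊤}).exists_maximal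
    ⟨⊥, inferInstance, bot_ne_top⟩
  obtain ⟨hn, ht⟩ := hN.prop
  refine ⟨N, hn, ht, ?_⟩
  have hnt : Nontrivial (G ⧸ N) := by
    rw [← not_subsingleton_iff_nontrivial]
    intro h
    exact ht (QuotientGroup.subsingleton_iff.1 h)
  refine ⟨fun K hK => ?_⟩
  have h1 : N ≤ K.comap (QuotientGroup.mk' N) := by
    intro x hx
    rw [Subgroup.mem_comap, QuotientGroup.mk'_apply, (QuotientGroup.eq_one_iff x).2 hx]
    exact K.one_mem
  have hsurj := QuotientGroup.mk'_surjective N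
  by_cases h2 : K.comap (QuotientGroup.mk' N) = ⊤
  · right
    rw [← Subgroup.map_comap_eq_self_of_surjective hsurj K, h2, ← MonoidHom.range_eq_map,
      MonoidHom.range_eq_top.2 hsurj]
  · left
    have h3 : K.comap (QuotientGroup.mk' N) ≤ N := hN.le_of_ge ⟨inferInstance, h2⟩ h1
    rw [← Subgroup.map_comap_eq_self_of_surjective hsurj K, eq_bot_iff]
    rintro _ ⟨g, hg, rfl⟩
    exact (QuotientGroup.eq_one_iff g).2 (h3 hg)

/-- **the reduction**, direction `<=` -/
theorem solvable_of_nt {p : ℕ} [hp : Fact p.Prime]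
    (hrow : ∀ (S : Type u) [Group S] [Finite S] [IsSimpleGroup S], (∃ x y : S, x * y ≠ y * x) → Row S)
    (hL : LiftStmt.{u}) :
    ∀ (n : ℕ) (G : Type u) [Group G] [Finite G], Nat.card G = n → NT p G → Cfsg.IsPSolvable p G := by
  intro n
  induction n using Nat.strong_induction_on with
  | _ n ih =>
    intro G _ _ hn hG
    by_contra hG1
    have hsub : ∀ K : Subgroup G, K ≠ ⊤ → Cfsg.IsPSolvable p K := by
      intro K hK
      refine ih _ ?_ K rfl (hG.of_injective K.subtype K.subtype_injective)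
      rw [← hn]
      exact lt_of_le_of_ne (Subgroup.card_le_card_group K) fun h => hK ((Subgroup.card_eq_iff_eq_top K).1 h)
    have : Nontrivial G := by
      rw [← not_subsingleton_iff_nontrivial]
      intro h
      apply hG1
      apply PLocal.PSolvable.isPSolvable_of_coprime
      rw [Nat.card_unique]
      exact Nat.coprime_one_left p
    obtain ⟨N, hNn, hNt, hsimp⟩ := exists_max_normal (G := G)
    have hS : ¬ Cfsg.IsPSolvable p (G ⧸ N) := fun h =>
      hG1 (Lib.PSolvable.IsPSolvable_of_extension p N (hsub N hNt) h)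
    have hsurj := QuotientGroup.mk'_surjective N
    have hsubS : ∀ K : Subgroup (G ⧸ N), K ≠ ⊤ → Cfsg.IsPSolvable p K := by
      intro K hK
      have h1 : K.comap (QuotientGroup.mk' N) ≠ ⊤ := by
        intro h2
        apply hK
        rw [← Subgroup.map_comap_eq_self_of_surjective hsurj K, h2, ← MonoidHom.range_eq_map,
          MonoidHom.range_eq_top.2 hsurj]
      have h2 := hsub _ h1
      refine PLocal.PSolvable.isPSolvable_of_surjective ((QuotientGroup.mk' N).subgroupComap K) ?_ h2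
      rintro ⟨w, hw⟩
      obtain ⟨g, rfl⟩ := QuotientGroup.mk_surjective w
      exact ⟨⟨g, hw⟩, rfl⟩
    have hna : ∃ x y : G ⧸ N, x * y ≠ y * x := by
      by_contra hcomm
      push Not at hcomm
      apply hS
      have : Group.IsSolvable (G ⧸ N) := Group.isSolvable_of_comm hcomm
      exact Lib.PSolvable.IsPSolvable_of_solvable p
    have hpS : p ∣ Nat.card (G ⧸ N) := by
      by_contra h
      exact hS (PLocal.PSolvable.isPSolvable_of_coprime ((Nat.Prime.coprime_iff_not_dvd hp.out).2 h).symm)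
    have hM : ∀ M : Subgroup G, M ⊔ N = ⊤ → M = ⊤ := by
      intro M hMN
      by_contra hM
      apply hS
      refine PLocal.PSolvable.isPSolvable_of_surjective ((QuotientGroup.mk' N).comp M.subtype) ?_ (hsub M hM)
      intro w
      obtain ⟨g, rfl⟩ := QuotientGroup.mk_surjective w
      have hg : g ∈ M ⊔ N := by rw [hMN]; trivial
      obtain ⟨m, hm, k, hk, rfl⟩ := Subgroup.mem_sup_of_normal_right.1 hg
      exact ⟨⟨m, hm⟩, (QuotientGroup.mk_mul_of_mem m hk).symm⟩
    have hfr : N ≤ frattini G := by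
      refine le_iInf₂ fun M hMc => ?_
      by_contra hle
      have h1 : M < M ⊔ N := by
        refine lt_of_le_of_ne le_sup_left fun h => hle ?_
        rw [h]
        exact le_sup_right
      exact hMc.1 (hM M (hMc.2 _ h1))
    have hnil : Group.IsNilpotent N := by
      have h1 : Group.IsNilpotent (frattini G) := frattini_nilpotent
      have h2 : Group.IsNilpotent (N.subgroupOf (frattini G)) := inferInstance
      exact Group.nilpotent_of_mulEquiv (Subgroup.subgroupOfEquivOfLe hfr)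
    rcases hrow (G ⧸ N) hna p hp.out hpS with ⟨H, hH, h1⟩ | ⟨a, b, c, hpd, h2, ha, hb, hc, hab, hac, hbc, x, y, z, hx, hy,
        hz, h3, h4⟩
    · exact h1 (hsubS H hH)
    have hgen : Subgroup.closure ({x, y, z} : Set (G ⧸ N)) = ⊤ := by
      by_contra hne
      have h5 := hsubS _ hne
      have mx : x ∈ Subgroup.closure ({x, y, z} : Set (G ⧸ N)) := Subgroup.subset_closure (by simp)
      have my : y ∈ Subgroup.closure ({x, y, z} : Set (G ⧸ N)) := Subgroup.subset_closure (by simp)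
      have mz : z ∈ Subgroup.closure ({x, y, z} : Set (G ⧸ N)) := Subgroup.subset_closure (by simp)
      have key : ∀ {t : ℕ} {w : G ⧸ N} (hw : w ∈ Subgroup.closure ({x, y, z} : Set (G ⧸ N))), PE t w →
          PE t (⟨w, hw⟩ : Subgroup.closure ({x, y, z} : Set (G ⧸ N))) := by
        intro t w hw hpe
        refine ⟨fun h6 => hpe.1 (congrArg Subtype.val h6), ?_⟩
        rw [Subgroup.orderOf_mk]
        exact hpe.2
      exact not_triple h5 ha hb hc hab hac hbc hpd (key mx hx) (key my hy) (key mz hz) (Subtype.ext h3)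
    have hperf : commutator (G ⧸ N) = ⊤ := by
      rcases (inferInstance : (commutator (G ⧸ N)).Normal).eq_bot_or_eq_top with h5 | h5
      · exfalso
        obtain ⟨s, t, hst⟩ := hna
        apply hst
        have h6 : ⁅s, t⁆ ∈ commutator (G ⧸ N) := Subgroup.commutator_mem_commutator (Subgroup.mem_top s) (Subgroup.mem_top t)
        rw [h5, Subgroup.mem_bot, commutatorElement_eq_one_iff_mul_comm] at h6
        exact h6
      · exact h5
    have hker : (QuotientGroup.mk' N).ker = N := QuotientGroup.ker_mk' N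
    obtain ⟨x', y', z', e1, e2, e3, e4, e5, e6, e7⟩ := lift_all hL hperf ha hb hc h2 hx hy hz h3 hgen h4 n G
      (QuotientGroup.mk' N) hn hsurj (by rw [hker]; exact hnil)
      (by rw [hker]; exact fun s hs hsd => dvd_quotient hnil hM hs hsd)
    exact hG.false ha hb hc hab hac hbc hpd (pe_of_map ha hx e1 e5) (pe_of_map hb hy e2 e6) (pe_of_map hc hz e3 e7) e4

/-- **S3988 from the rows and the lifting statement** -/
theorem reduce (hrow : ∀ (S : Type u) [Group S] [Finite S] [IsSimpleGroup S], (∃ x y : S, x * y ≠ y * x) → Row S)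
    (hL : LiftStmt.{u}) {G : Type u} [Group G] [Finite G] (p : ℕ) [Fact p.Prime] :
    Cfsg.IsPSolvable p G ↔ ∀ q r : ℕ, q.Prime → r.Prime → q ≠ r → q ≠ p → r ≠ p → ∀ x y z : G, x ≠ 1 →
      (∃ a : ℕ, orderOf x = p ^ a) → y ≠ 1 → (∃ b : ℕ, orderOf y = q ^ b) → z ≠ 1 → (∃ c : ℕ, orderOf z = r ^ c) →
      x * y * z ≠ 1 := by
  constructor
  · intro h q r hq hr hqr hqp hrp x y z hx hx' hy hy' hz hz' h1
    exact not_triple h (Fact.out : p.Prime) hq hr hqp.symm hrp.symm hqr (Or.inl rfl) ⟨hx, hx'⟩ ⟨hy, hy'⟩ ⟨hz, hz'⟩ h1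
  · intro h
    exact solvable_of_nt hrow hL _ G rfl h

end reduction

end Cfsg.Agent.H410.PQR
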